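import Cfsg.Agent.H799.Tall.Tools
import Cfsg.Agent.Transfer.TausskyTwoGroup
import Cfsg.Agent.H571.SylowNumber
import Cfsg.Agent.OddHalf.UT5.KBasic
import Cfsg.Agent.OddHalf.UT5.Fam
import Cfsg.Agent.KFacts.TwoSix.Normal
import Cfsg.Agent.KFacts.He.Hyp
import Cfsg.Agent.S1695

/-!
# S2927: the Held group (helper799)

* `no1_of_hyp` : no simple group with an involution centralizer `2^{1+6} L₃(2)` (`Hyp z ι`) occurs as `F*(G)`;
* `no1_he`, `rowTwo_he`.

`W ∩ K`, `W = ⟨Y ^ N(Q)⟩`, is an elementary abelian normal subgroup of `C_K(z)` with an element `w = z^m ≠ z`: it is one of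
the two normal subgroups `R1`, `R2` of order `16`. If `x ∈ K` then `x` is conjugate to `w`. If `x ∉ K` then `x` acts on
`C_K(z)` as an outer automorphism, which exchanges `R1` and `R2`, but `x` centralises `W`.
-/

set_option autoImplicit false

namespace Cfsg.Agent.H799.Tall

open Subgroup Cfsg
open Cfsg.Agent.H226.Tall
open Cfsg.Agent.H239.CharPLocal (CP)

universe u

/-! ### central involutions -/

/-- an involution of `Z(S)` in a normal subgroup of even order -/
theorem exists_central_mem {G : Type*} [Group G] [Finite G] (S : Sylow 2 G) (K : Subgroup G) [K.Normal]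
    (h2 : 2 ∣ Nat.card K) :
    ∃ z : G, z ∈ K ∧ z ∈ (S : Subgroup G) ∧ z ≠ 1 ∧ z * z = 1 ∧ ∀ s ∈ (S : Subgroup G), s * z = z * s := by
  have : Fact (Nat.Prime 2) := ⟨Nat.prime_two⟩
  obtain ⟨T, hT⟩ := Cfsg.Agent.H571.SylowNumber.exists_sylow_inf S K
  have hN : K.subgroupOf (S : Subgroup G) ≠ ⊥ := by
    intro e
    have h3 : 2 ^ 1 ∣ Nat.card (T : Subgroup K) := T.pow_dvd_card_of_pow_dvd_card (by rwa [pow_one])
    have h4 : (T : Subgroup K) = ⊥ := by
      rw [eq_bot_iff]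
      intro t ht
      rw [hT, mem_subgroupOf] at ht
      have h5 : (⟨(t : G), ht⟩ : (S : Subgroup G)) ∈ K.subgroupOf (S : Subgroup G) := by
        rw [mem_subgroupOf]; exact t.2
      rw [e, mem_bot] at h5
      have h6 : (t : G) = 1 := congrArg Subtype.val h5
      rw [mem_bot]
      exact Subtype.ext h6
    rw [h4, Subgroup.card_bot] at h3
    exact absurd h3 (by norm_num)
  obtain ⟨c, hcN, hcc, hc1⟩ := Cfsg.Agent.Transfer.TausskyTwoGroup.exists_ne_one_mem_inf_center S.isPGroup'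
    (K.subgroupOf (S : Subgroup G)) hN
  rw [mem_subgroupOf] at hcN
  obtain ⟨k, hk⟩ := S.isPGroup' c
  -- the last nontrivial power
  have key : ∀ k : ℕ, ∀ c : (S : Subgroup G), c ^ 2 ^ k = 1 → c ≠ 1 → (c : G) ∈ K → c ∈ center (S : Subgroup G) →
      ∃ d : (S : Subgroup G), d ≠ 1 ∧ d * d = 1 ∧ (d : G) ∈ K ∧ d ∈ center (S : Subgroup G) := by
    intro k
    induction k with
    | zero =>
      intro c h1 h2 _ _
      rw [pow_zero, pow_one] at h1
      exact absurd h1 h2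
    | succ k ih =>
      intro c h1 h2 h3 h4
      by_cases h5 : c * c = 1
      · exact ⟨c, h2, h5, h3, h4⟩
      · refine ih (c * c) ?_ h5 (K.mul_mem h3 h3) (mul_mem h4 h4)
        rw [← pow_two, ← pow_mul, ← pow_succ']
        exact h1
  obtain ⟨d, hd1, hdd, hdK, hdc⟩ := key k c hk hc1 hcN hcc
  refine ⟨(d : G), hdK, d.2, fun e => hd1 (Subtype.ext e), congrArg Subtype.val hdd, fun s hs => ?_⟩
  exact congrArg Subtype.val (mem_center_iff.mp hdc ⟨s, hs⟩)

/-- `Y ≤ W` -/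
theorem mem_Wc {G : Type*} [Group G] {Q Y : Subgroup G} {y : G} (hy : y ∈ Y) : y ∈ Wc Q Y :=
  subset_closure ⟨1, one_mem _, y, hy, by group⟩

/-- `N(Q)` normalises `W` -/
theorem Wc_conj {G : Type*} [Group G] {Q Y : Subgroup G} {c w : G} (hc : c ∈ normalizer (Q : Set G))
    (hw : w ∈ Wc Q Y) : c * w * c⁻¹ ∈ Wc Q Y := by
  have h1 : Wc Q Y ≤ (Wc Q Y).comap (MulAut.conj c).toMonoidHom := by
    refine (closure_le _).mpr ?_
    rintro _ ⟨d, hd, y, hy, rfl⟩
    show c * (d * y * d⁻¹) * c⁻¹ ∈ Wc Q Y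
    exact subset_closure ⟨c * d, mul_mem hc hd, y, hy, by group⟩
  exact h1 hw

/-- in an elementary abelian subgroup all elements commute -/
theorem comm_of_sq {G : Type*} [Group G] {W : Subgroup G} (h : ∀ w ∈ W, w * w = 1) {a b : G} (ha : a ∈ W)
    (hb : b ∈ W) : a * b = b * a := by
  have h1 := h _ (mul_mem ha hb)
  have h2 := h a ha
  have h3 := h b hb
  calc a * b = a * b * (b * a * (b * a)) := by rw [h _ (mul_mem hb ha), mul_one]
    _ = a * (b * b) * a * (b * a) := by group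
    _ = b * a := by rw [h3, mul_one, h2, one_mul]

end Cfsg.Agent.H799.Tall

namespace Cfsg.Agent.H799.Tall.He

open Subgroup Cfsg
open Cfsg.Agent.H226.Tall
open Cfsg.Agent.H239.CharPLocal (CP)
open Cfsg.Agent.SporadicRecognition.HeldModel Cfsg.Agent.KFacts.TwoSix.Base
  Cfsg.Agent.KFacts.TwoSix.Facts Cfsg.Agent.KFacts.TwoSix.Aut Cfsg.Agent.KFacts.TwoSix.Normal
open Cfsg.Agent.OddHalf.UT5.KBasic

universe u

theorem hyp_map {G H : Type*} [Group G] [Group H] {z : G} {ι : CC →* G} (h : Hyp z ι) (e : G ≃* H) :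
    Hyp (e z) (e.toMonoidHom.comp ι) where
  inj := fun a b hab => h.inj (e.injective hab)
  range := by
    ext x
    rw [mem_centralizer_singleton_iff]
    constructor
    · rintro ⟨u, rfl⟩
      show e (ι u) * e z = e z * e (ι u)
      rw [← map_mul, ← map_mul, comm_z h u]
    · intro hx
      obtain ⟨u, hu⟩ := (mem_range h (g := e.symm x)).2 (by
        apply e.injective
        rw [map_mul, map_mul, e.apply_symm_apply]
        exact hx)
      exact ⟨u, by show e (ι u) = x; rw [hu, e.apply_symm_apply]⟩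
  map_zz := by
    show e (ι zC) = e z
    rw [h.map_zz]

theorem ne_one {G : Type*} [Group G] {z : G} {ι : CC →* G} (h : Hyp z ι) : z ≠ 1 := by
  intro e
  have h1 : ι zC = ι 1 := by rw [h.map_zz, e, map_one]
  exact zC_ne (h.inj h1)

/-- the 2-central involutions -/
theorem conj_of_central {G : Type*} [Group G] [Finite G] {z0 : G} {ι : CC →* G} (h : Hyp z0 ι) {z : G} (hz1 : z ≠ 1)
    (P : Sylow 2 G) (hP : ∀ s ∈ (P : Subgroup G), s * z = z * s) : ∃ g, g * z0 * g⁻¹ = z := by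
  have : Fact (Nat.Prime 2) := ⟨Nat.prime_two⟩
  obtain ⟨T, hT⟩ := exists_sylow h
  obtain ⟨g, hg⟩ := MulAction.exists_smul_eq G T P
  have hmem : ∀ u : CC, (u : L5) ∈ T0 → ι u * (g⁻¹ * z * g) = (g⁻¹ * z * g) * ι u := by
    intro u hu
    have h1 : ι u ∈ (T : Subgroup G) := by rw [hT]; exact ⟨u, hu, rfl⟩
    have h2 : g * ι u * g⁻¹ ∈ (P : Subgroup G) := by
      rw [← hg]
      exact Subgroup.smul_mem_pointwise_smul _ (MulAut.conj g) _ h1
    have h3 := hP _ h2
    calc ι u * (g⁻¹ * z * g) = g⁻¹ * (g * ι u * g⁻¹ * z) * g := by group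
      _ = g⁻¹ * (z * (g * ι u * g⁻¹)) * g := by rw [h3]
      _ = _ := by group
  have h1 : (g⁻¹ * z * g) * z0 = z0 * (g⁻¹ * z * g) := by
    have h2 := hmem zC (x_mem_T0 (by decide))
    rw [h.map_zz] at h2
    exact h2.symm
  refine ⟨g, ?_⟩
  rcases center_T0 h h1 hmem with h2 | h2
  · exfalso
    apply hz1
    calc z = g * (g⁻¹ * z * g) * g⁻¹ := by group
      _ = 1 := by rw [h2]; group
  · rw [← h2]; group

/-- an outer automorphism of `CC` fixes no element of `R1` or `R2` outside the centre -/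
theorem outer_fix {c u : CC} (h : u = c * tauC u * c⁻¹) (hu : (u : L5) ∈ R1 ∨ (u : L5) ∈ R2) : u = 1 ∨ u = zC := by
  have h2 : (u : L5) ∈ R1 ∧ (u : L5) ∈ R2 := by
    rcases hu with hu | hu
    · refine ⟨hu, ?_⟩
      have h1 := norm_R2 c.2 (OddHalf.UT5.Fam.tauC_R1 u hu)
      rw [h]
      exact h1
    · refine ⟨?_, hu⟩
      have h1 := norm_R1 c.2 (OddHalf.UT5.Fam.tauC_R2 u hu)
      rw [h]
      exact h1
  rcases inter h2.1 h2.2 with e | e
  · exact Or.inl (Subtype.ext e)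
  · exact Or.inr (Subtype.ext e)

/-- `QQ` is not elementary abelian -/
theorem QQ_not_sq (h : ∀ y ∈ QQ, y * y = 1) : False := by
  have h0 : ro (Pi.single 0 1) ∈ R1 := ro_mem_R1 _
  have h1 : ro (Pi.single 0 1) ≠ 1 := by
    rw [← ro_zero]
    intro e
    have := congrFun (ro_inj e) 0
    simp at this
  have h2 : ro (Pi.single 0 1) ≠ zz := by
    rw [zz_eq]
    intro e
    have := congrFun (ro_inj e) 0
    simp at this
  obtain ⟨b, hb, hab⟩ := pair_left h0 h1 h2
  have h3 := comm_of_sq h (R1_le_QQ h0) (R2_le_QQ hb)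
  rw [h3, mul_inv_cancel_right, mul_inv_cancel] at hab
  exact zz_ne_one hab.symm

/-- **groups with `Hyp z ι` do not occur** -/
theorem false_of_hyp {G : Type u} [Group G] [Finite G] {S : Sylow 2 G} {Q M Y : Subgroup G} {x : G} {K : Subgroup G}
    (h : One S Q M Y x K) {z0 : K} {ι0 : CC →* K} (h0 : Hyp z0 ι0) : False := by
  have hp : Fact (Nat.Prime 2) := ⟨Nat.prime_two⟩
  have hnK := h.nK
  have hsK := h.simple
  have h2K : 2 ∣ Nat.card K := by
    have h1 : orderOf z0 = 2 := orderOf_eq_prime (by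
      rw [pow_two, ← h0.map_zz, ← map_mul, sq_zC, map_one]) (ne_one h0)
    rw [← h1]
    exact orderOf_dvd_natCard z0
  obtain ⟨z, hzK, hzS', hz1, hzz, hzS⟩ := exists_central_mem S K h2K
  obtain ⟨T, hT⟩ := Cfsg.Agent.H571.SylowNumber.exists_sylow_inf S K
  obtain ⟨g, hg⟩ := conj_of_central h0 (z := (⟨z, hzK⟩ : K)) (fun e => hz1 (congrArg Subtype.val e)) T (by
    intro s hs
    rw [hT, mem_subgroupOf] at hs
    exact Subtype.ext (hzS _ hs))
  have hι := hyp_map h0 (MulAut.conj g)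
  rw [MulAut.conj_apply, hg] at hι
  generalize hιdef : (MulAut.conj g).toMonoidHom.comp ι0 = ι at hι
  -- `z`
  have hzY : z ∈ Y := h.omega z hzS hzz
  have hzQ : z ∈ Q := h.zS z hzS ⟨1, by rw [pow_one, pow_two]; exact hzz⟩
  obtain ⟨hCN, hCP⟩ := h.good z hzQ hz1 fun q hq => hzS q (h.Q_le hq)
  obtain ⟨m, hm, hwY, hwz⟩ := h.moves z hzS hzz hz1
  have hwK : m * z * m⁻¹ ∈ K := hnK.conj_mem z hzK m
  have hYab : ∀ a ∈ Y, ∀ b ∈ Y, a * b = b * a := fun a ha b hb => comm_of_sq h.W_sq (mem_Wc ha) (mem_Wc hb)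
  obtain ⟨u, hu⟩ : ∃ u : CC, ι u = ⟨m * z * m⁻¹, hwK⟩ :=
    (mem_range hι).2 (Subtype.ext (hYab _ hwY _ hzY))
  have hu1 : u ≠ 1 := by
    rintro rfl
    rw [map_one] at hu
    have h1 : (1 : G) = m * z * m⁻¹ := congrArg Subtype.val hu
    apply hz1
    calc z = m⁻¹ * (m * z * m⁻¹) * m := by group
      _ = 1 := by rw [← h1]; group
  have huz : u ≠ zC := by
    rintro rfl
    rw [hι.map_zz] at hu
    exact hwz (congrArg Subtype.val hu).symm
  -- the subgroup `W ∩ K` in coordinates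
  let B : Subgroup L5 := (((Wc Q Y).subgroupOf K).comap ι).map CC.subtype
  have mem_B : ∀ v : CC, (v : L5) ∈ B ↔ ((ι v : K) : G) ∈ Wc Q Y := by
    intro v
    constructor
    · rintro ⟨v', hv', e⟩
      have e' : v' = v := Subtype.ext e
      rw [← e']
      exact hv'
    · intro hv
      exact ⟨v, hv, rfl⟩
  have hBC : B ≤ CC := by
    rintro _ ⟨v, -, rfl⟩
    exact v.2
  have hBsq : ∀ y ∈ B, y * y = 1 := by
    intro y hy
    have h1 := (mem_B ⟨y, hBC hy⟩).mp hy
    have h2 := h.W_sq _ h1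
    have h3 : ι (⟨y, hBC hy⟩ * ⟨y, hBC hy⟩) = 1 := by
      rw [map_mul]
      exact Subtype.ext h2
    have h4 := hι.inj (h3.trans (map_one ι).symm)
    exact congrArg Subtype.val h4
  have hBn' : ∀ p v : CC, (v : L5) ∈ B → ((p * v * p⁻¹ : CC) : L5) ∈ B := by
    intro p v hv
    rw [mem_B] at hv ⊢
    have h2 : ((ι p : K) : G) ∈ normalizer (Q : Set G) := by
      apply hCN
      rw [mem_centralizer_singleton_iff]
      exact congrArg Subtype.val (comm_z hι p)
    have e : ((ι (p * v * p⁻¹) : K) : G) = (ι p : G) * (ι v : G) * (ι p : G)⁻¹ := by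
      rw [map_mul, map_mul, map_inv]
      rfl
    rw [e]
    exact Wc_conj h2 hv
  have hBn : ∀ p ∈ CC, ∀ y ∈ B, p * y * p⁻¹ ∈ B := fun p hp' y hy => hBn' ⟨p, hp'⟩ ⟨y, hBC hy⟩ hy
  have hBp : IsPGroup 2 B := fun y => ⟨1, Subtype.ext (by
    rw [pow_one, pow_two]; exact hBsq y y.2)⟩
  have huB : (u : L5) ∈ B := (mem_B u).mpr (by rw [hu]; exact mem_Wc hwY)
  -- `B = R1` or `B = R2`
  have hBR : B = R1 ∨ B = R2 := by
    rcases normal_cases (core hBC hBp hBn) hBn with h1 | h1 | h1 | h1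
    · exfalso
      rcases h1 _ huB with e | e
      · exact hu1 (Subtype.ext e)
      · exact huz (Subtype.ext e)
    · exact Or.inl h1
    · exact Or.inr h1
    · exfalso
      exact QQ_not_sq (h1 ▸ hBsq)
  have hx1 : x ≠ 1 := (orderOf_eq_prime_iff.mp h.x_ord).2
  by_cases hxK : x ∈ K
  · obtain ⟨v, hv⟩ : ∃ v : CC, ι v = ⟨x, hxK⟩ := (mem_range hι).2 (Subtype.ext (hYab _ h.x_mem _ hzY))
    have hv1 : v ≠ 1 := by
      rintro rfl
      rw [map_one] at hv
      exact hx1 (congrArg Subtype.val hv).symm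
    have hvB : (v : L5) ∈ B := (mem_B v).mpr (by rw [hv]; exact mem_Wc h.x_mem)
    by_cases hvz : v = zC
    · subst hvz
      rw [hι.map_zz] at hv
      have h1 : z = x := congrArg Subtype.val hv
      rw [h1] at hCP
      exact h.x_bad hCP
    · have hne : ∀ {t : CC}, t ≠ 1 → t ≠ zC → (t : L5) ≠ 1 ∧ (t : L5) ≠ zz :=
        fun h1 h2 => ⟨fun e => h1 (Subtype.ext e), fun e => h2 (Subtype.ext e)⟩
      obtain ⟨p, hp', e⟩ : ∃ p ∈ CC, p * (u : L5) * p⁻¹ = (v : L5) := by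
        rcases hBR with h1 | h1
        · rw [h1] at huB hvB
          exact trans_R1 huB (hne hu1 huz).1 (hne hu1 huz).2 hvB (hne hv1 hvz).1 (hne hv1 hvz).2
        · rw [h1] at huB hvB
          exact trans_R2 huB (hne hu1 huz).1 (hne hu1 huz).2 hvB (hne hv1 hvz).1 (hne hv1 hvz).2
      have h1 : (⟨p, hp'⟩ : CC) * u * (⟨p, hp'⟩ : CC)⁻¹ = v := Subtype.ext e
      have h2 := congrArg ι h1
      rw [map_mul, map_mul, map_inv, hu, hv] at h2
      have h3 : ((ι ⟨p, hp'⟩ : K) : G) * (m * z * m⁻¹) * ((ι ⟨p, hp'⟩ : K) : G)⁻¹ = x := congrArg Subtype.val h2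
      have h4 := Cfsg.Agent.H239.CharPLocal.cp_centralizer_conj (((ι ⟨p, hp'⟩ : K) : G) * m) z hCP
      have h5 : ((ι ⟨p, hp'⟩ : K) : G) * m * z * (((ι ⟨p, hp'⟩ : K) : G) * m)⁻¹ = x := by
        rw [← h3]; group
      rw [h5] at h4
      exact h.x_bad h4
  · have hxz : x * z * x⁻¹ = z := by rw [hYab _ h.x_mem _ hzY, mul_inv_cancel_right]
    obtain ⟨b, hb⟩ := exists_b hι (MulAut.conjNormal x : MulAut K) (Subtype.ext hxz)
    rcases KFacts.TwoSix.AutCC.aut b with ⟨c, hc | hc⟩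
    · obtain ⟨k, hk⟩ := inner_of hι (α := MulAut.conjNormal x) (c := c)
        (fun u => by rw [← hb, hc, map_mul, map_mul, map_inv])
      have h1 : (k : G)⁻¹ * x ∈ centralizer (K : Set G) := by
        rw [mem_centralizer_iff]
        intro a ha
        have h2 := congrArg (fun f : MulAut ↥K => ((f ⟨a, ha⟩ : ↥K) : G)) hk
        have h3 : (k : G) * a * (k : G)⁻¹ = x * a * x⁻¹ := h2
        calc a * ((k : G)⁻¹ * x) = (k : G)⁻¹ * (k * a * (k : G)⁻¹) * x := by group
          _ = (k : G)⁻¹ * (x * a * x⁻¹) * x := by rw [h3]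
          _ = (k : G)⁻¹ * x * a := by group
      rw [h.cent, mem_bot, inv_mul_eq_one] at h1
      apply hxK
      rw [← h1]
      exact k.2
    · have h1 : b u = u := by
        apply hι.inj
        rw [hb, hu]
        refine Subtype.ext ?_
        show x * (m * z * m⁻¹) * x⁻¹ = m * z * m⁻¹
        rw [hYab _ h.x_mem _ hwY, mul_inv_cancel_right]
      rw [hc] at h1
      rcases outer_fix h1.symm (by
        rcases hBR with h2 | h2
        · exact Or.inl (h2 ▸ huB)
        · exact Or.inr (h2 ▸ huB)) with e | e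
      · exact hu1 e
      · exact huz e

/-- `Hyp` for the Held group -/
theorem exists_hyp {K : Type*} [Group K] (hK : Spor.IsoHe K) : ∃ (z : K) (ι : CC →* K), Hyp z ι := by
  obtain ⟨e⟩ := hK
  obtain ⟨z, ι, h⟩ := Cfsg.Agent.KFacts.He.Hyp.hyp_he
  exact ⟨_, _, hyp_map h e.symm⟩

/-- **`He` does not occur as `F*(G)`** -/
theorem no1_he : No1.{u} (fun K _ => Spor.IsoHe K) := by
  intro G _ _ S Q M Y x K h hK
  obtain ⟨z, ι, h0⟩ := exists_hyp hK
  exact false_of_hyp h h0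

/-- **Row 2** -/
theorem rowTwo_of_hyp {K : Type*} [Group K] [Finite K] {z0 : K} {ι : CC →* K} (h0 : Hyp z0 ι) : RowTwo K := by
  rintro z ⟨hz, P, hP⟩ h2
  have hz1 : z ≠ 1 := by
    rintro rfl
    rw [orderOf_one] at hz
    omega
  obtain ⟨g, hg⟩ := conj_of_central h0 hz1 P (fun s hs => mem_centralizer_singleton_iff.mp (hP hs))
  have hι := hyp_map h0 (MulAut.conj g)
  rw [MulAut.conj_apply, hg] at hι
  rw [← hι.range] at h2
  have h3 : IsPGroup 2 CC := h2.of_equiv (MonoidHom.ofInjective hι.inj).symm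
  have : Fact (Nat.Prime 2) := ⟨Nat.prime_two⟩
  obtain ⟨n, hn⟩ := h3.exists_card_eq
  rw [card_CC] at hn
  have h4 : 3 ∣ 2 ^ n := by rw [← hn]; norm_num
  exact absurd (Nat.Prime.dvd_of_dvd_pow Nat.prime_three h4) (by norm_num)

theorem rowTwo_he (K : Type u) [Group K] (hK : Spor.IsoHe K) : RowTwo K := by
  obtain ⟨z, ι, h0⟩ := exists_hyp hK
  have : Finite K := by
    obtain ⟨e⟩ := hK
    have := Cfsg.Agent.KFacts.He.Hyp.finHe
    exact Finite.of_equiv _ e.symm.toEquiv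
  exact rowTwo_of_hyp h0

end Cfsg.Agent.H799.Tall.He
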