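import Cfsg.Agent.H799.Tall.Tools
import Cfsg.Agent.KFacts.Ru.InvC
import Cfsg.Agent.KFacts.Ru.Core
import Cfsg.Agent.OddHalf.D4.Spor.RuIso
import Cfsg.Agent.RuB.QSylA

/-!
# S2927: the Rudvalis group (helper799)

* `no1_ru` : `Ru` does not occur as `F*(G)`;
* `rowTwo_ru` : the centralizers of the 2-central involutions of `Ru` are not 2-groups.

In `G = Ru` the bad involution is conjugate to `v a` with `C(v a) = 2^2 × Sz(8)`, the involutions of `Z(S)` are conjugate
to `z 1`. Hence `C(Y) = O₂(M)` is conjugate to `TT = 2^2 × (Sylow of Sz(8))`, of order `2^8`. But `M / O₂(M)` embeds in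
`GL₃(2) × GL₂(2)`, whose order is not divisible by `2^6`.
-/

set_option autoImplicit false

namespace Cfsg.Agent.H799.Tall.Ru

open Subgroup Cfsg Cfsg.Agent.RuB Cfsg.Agent.RuB.Core Cfsg.Agent.RuB.Count
open Cfsg.Agent.H226.Tall
open Cfsg.Agent.H239.CharPLocal (CP)
open Cfsg.Agent.OddHalf.D4.Spor.RuCore (conjCore)

universe u

/-! ### a counting lemma -/

/-- `M` acts on `Z` of order at most `8` and on `E / Z` of order at most `4`; the kernel is in `O₂(M)` -/
theorem card_dvd_of_action {M : Type*} [Group M] [Finite M] (Z E : Subgroup M) [Z.Normal] [E.Normal]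
    (hZ : Nat.card Z ≤ 8) (hE : Nat.card (E.map (QuotientGroup.mk' Z)) ≤ 4)
    (hker : ∀ n : M, (∀ z ∈ Z, n * z = z * n) → (∀ e ∈ E, n * e * n⁻¹ * e⁻¹ ∈ Z) → ∃ k : ℕ, n ^ 2 ^ k = 1) :
    Nat.card M ∣ Nat.card (pCore 2 M) * (Nat.factorial 7 * Nat.factorial 3) := by
  have hEn : (E.map (QuotientGroup.mk' Z)).Normal :=
    Subgroup.Normal.map inferInstance _ (QuotientGroup.mk'_surjective Z)
  let f1 : M →* MulAut Z := MulAut.conjNormal
  let f2 : M →* MulAut (E.map (QuotientGroup.mk' Z)) :=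
    (MulAut.conjNormal (H := E.map (QuotientGroup.mk' Z))).comp (QuotientGroup.mk' Z)
  let f := f1.prod f2
  have hk : f.ker ≤ pCore 2 M := by
    refine Cfsg.Agent.Lib.Cores.le_pCore inferInstance ?_
    rintro ⟨n, hn⟩
    rw [MonoidHom.mem_ker] at hn
    have h1 : f1 n = 1 := congrArg Prod.fst hn
    have h2 : f2 n = 1 := congrArg Prod.snd hn
    obtain ⟨k, hk⟩ := hker n (by
      intro z hz
      have h3 := congrArg (fun a : MulAut Z => ((a ⟨z, hz⟩ : Z) : M)) h1
      have h4 : n * z * n⁻¹ = z := h3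
      exact mul_inv_eq_iff_eq_mul.mp h4) (by
      intro e he
      have h3 := congrArg (fun a : MulAut (E.map (QuotientGroup.mk' Z)) =>
        ((a ⟨QuotientGroup.mk' Z e, ⟨e, he, rfl⟩⟩ : E.map (QuotientGroup.mk' Z)) : M ⧸ Z)) h2
      have h4 : QuotientGroup.mk' Z (n * e * n⁻¹) = QuotientGroup.mk' Z e := h3
      have h5 : QuotientGroup.mk' Z (n * e * n⁻¹ * e⁻¹) = 1 := by
        rw [map_mul, h4, map_inv, mul_inv_cancel]
      exact (QuotientGroup.eq_one_iff _).mp h5)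
    exact ⟨k, Subtype.ext hk⟩
  have h1 : Nat.card M = Nat.card f.ker * Nat.card f.range := by
    rw [← Subgroup.index_ker, Subgroup.card_mul_index]
  have h2 : Nat.card f.ker ∣ Nat.card (pCore 2 M) := Subgroup.card_dvd_of_le hk
  have h3 : Nat.card f.range ∣ Nat.card (MulAut Z × MulAut (E.map (QuotientGroup.mk' Z))) :=
    Subgroup.card_subgroup_dvd_card _
  rw [Nat.card_prod] at h3
  have h4 : Nat.card (MulAut Z) ∣ Nat.factorial 7 :=
    (card_mulAut_dvd Z).trans (Nat.factorial_dvd_factorial (by omega))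
  have h5 : Nat.card (MulAut (E.map (QuotientGroup.mk' Z))) ∣ Nat.factorial 3 :=
    (card_mulAut_dvd _).trans (Nat.factorial_dvd_factorial (by omega))
  rw [h1]
  exact Nat.mul_dvd_mul h2 (h3.trans (Nat.mul_dvd_mul h4 h5))

/-! ### `T` -/

section core

variable {G : Type*} [Group G] (C : Core G)

theorem exists_pow5 (q : K8) : ∃ p : K8, p ^ 5 = q := by
  refine ⟨q ^ 3, ?_⟩
  have h := K8.pow_eight q
  calc (q ^ 3) ^ 5 = q ^ 8 * q ^ 7 := by ring
    _ = q ^ 8 := by rw [h]; rw [← pow_succ']; exact h.symm ▸ h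
    _ = q := h

theorem T_sq (b : A4) (a e : K8) : (C.v b * C.U a e) * (C.v b * C.U a e) = C.z (a ^ 5) := by
  have h := C.v_U_comm b a e
  calc (C.v b * C.U a e) * (C.v b * C.U a e) = C.v b * (C.U a e * C.v b) * C.U a e := by group
    _ = (C.v b * C.v b) * (C.U a e * C.U a e) := by rw [← h]; group
    _ = C.z (a ^ 5) := by rw [C.v_sq, one_mul, C.U_sq]

theorem T_sq_one {t : G} (ht : t ∈ C.TT) (htt : t * t = 1) : ∃ b e, t = C.v b * C.z e := by
  obtain ⟨b, a, e, rfl⟩ := TT_eq ht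
  rw [T_sq] at htt
  have h1 : a = 0 := pow_eq_zero_iff (n := 5) (by norm_num) |>.mp (C.z_eq_one htt)
  subst h1
  exact ⟨b, e, rfl⟩

/-- `Z = {z e}` -/
def ZG : Subgroup G where
  carrier := {g | ∃ e, g = C.z e}
  mul_mem' := by
    rintro _ _ ⟨e, rfl⟩ ⟨e', rfl⟩
    exact ⟨e + e', (C.z_add _ _).symm⟩
  one_mem' := ⟨0, C.z_zero.symm⟩
  inv_mem' := by
    rintro _ ⟨e, rfl⟩
    exact ⟨e, C.z_inv e⟩

theorem E_mul (b b' : A4) (e e' : K8) : (C.v b * C.z e) * (C.v b' * C.z e') = C.v (b + b') * C.z (e + e') := by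
  have h := C.v_z_comm b' e
  calc (C.v b * C.z e) * (C.v b' * C.z e') = C.v b * (C.z e * C.v b') * C.z e' := by group
    _ = (C.v b * C.v b') * (C.z e * C.z e') := by rw [← h]; group
    _ = _ := by rw [C.v_add, C.z_add]

/-- `E = {v b z e}` -/
def EG : Subgroup G where
  carrier := {g | ∃ b e, g = C.v b * C.z e}
  mul_mem' := by
    rintro _ _ ⟨b, e, rfl⟩ ⟨b', e', rfl⟩
    exact ⟨b + b', e + e', E_mul C _ _ _ _⟩
  one_mem' := ⟨0, 0, by rw [C.v_zero, C.z_zero, one_mul]⟩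
  inv_mem' := by
    rintro _ ⟨b, e, rfl⟩
    refine ⟨b, e, ?_⟩
    rw [mul_inv_rev, C.z_inv, C.v_inv, C.v_z_comm]

/-- `N(T)` has order dividing `2^8 · 7! · 3!`, up to the elements in `O₂` -/
theorem card_dvd_of_norm [Finite G] (M : Subgroup G) (hM : O2 M = C.TT) :
    Nat.card M ∣ 256 * (Nat.factorial 7 * Nat.factorial 3) := by
  have hc : Nat.card (pCore 2 M) = 256 := by
    have h2 : Nat.card (O2 M) = 256 := by rw [hM, QSyl.card_TT]
    rw [← h2]
    exact Nat.card_congr ((pCore 2 ↥M).equivMapOfInjective M.subtype M.subtype_injective).toEquiv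
  have hTM : ∀ t ∈ C.TT, t ∈ M := by
    intro t ht
    rw [← hM] at ht
    obtain ⟨m, -, rfl⟩ := ht
    exact m.2
  have hconj : ∀ m ∈ M, ∀ t ∈ C.TT, m * t * m⁻¹ ∈ C.TT := by
    intro m hm t ht
    rw [← hM] at ht ⊢
    obtain ⟨t', ht', rfl⟩ := ht
    exact ⟨⟨m, hm⟩ * t' * ⟨m, hm⟩⁻¹, (inferInstance : (pCore 2 ↥M).Normal).conj_mem _ ht' _, rfl⟩
  have hZn : ((ZG C).subgroupOf M).Normal := by
    constructor
    rintro ⟨n, hn⟩ hz ⟨m, hm⟩
    rw [mem_subgroupOf] at hz ⊢
    obtain ⟨e, he⟩ := hz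
    obtain ⟨p, hp⟩ := exists_pow5 e
    obtain ⟨b, a, e', h'⟩ := TT_eq (hconj m hm _ (mem_TT_of (C := C) (b := 0) (a := p) (e := 0)))
    refine ⟨a ^ 5, ?_⟩
    show m * n * m⁻¹ = _
    rw [← T_sq C b a e', ← h', show n = C.z e from he, ← hp, ← T_sq C 0 p 0]
    group
  have hEn : ((EG C).subgroupOf M).Normal := by
    constructor
    rintro ⟨n, hn⟩ hz ⟨m, hm⟩
    rw [mem_subgroupOf] at hz ⊢
    obtain ⟨b, e, he⟩ := hz
    refine T_sq_one C (hconj m hm n ?_) ?_
    · rw [show n = C.v b * C.z e from he]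
      exact mem_TT_of (C := C) (b := b) (a := 0) (e := e)
    · have h1 : n * n = 1 := by
        rw [show n = C.v b * C.z e from he]
        have := T_sq C b 0 e
        rw [zero_pow (by norm_num), C.z_zero] at this
        exact this
      show m * n * m⁻¹ * (m * n * m⁻¹) = 1
      calc m * n * m⁻¹ * (m * n * m⁻¹) = m * (n * n) * m⁻¹ := by group
        _ = 1 := by rw [h1]; group
  rw [← hc]
  refine card_dvd_of_action ((ZG C).subgroupOf M) ((EG C).subgroupOf M) ?_ ?_ ?_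
  · have h1 : Function.Surjective (fun e : K8 => (⟨⟨C.z e, hTM _ (z_mem_TT e)⟩, by
        rw [mem_subgroupOf]; exact ⟨e, rfl⟩⟩ : (ZG C).subgroupOf M)) := by
      rintro ⟨⟨n, hn⟩, hz⟩
      rw [mem_subgroupOf] at hz
      obtain ⟨e, he⟩ := hz
      exact ⟨e, Subtype.ext (Subtype.ext (show C.z e = n from he.symm))⟩
    have h2 := Nat.card_le_card_of_surjective _ h1
    rwa [K8.natCard] at h2
  · have h1 : Function.Surjective (fun b : A4 =>
        (⟨QuotientGroup.mk' ((ZG C).subgroupOf M) ⟨C.v b, hTM _ (v_mem_TT b)⟩, ⟨⟨C.v b, hTM _ (v_mem_TT b)⟩, by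
          rw [SetLike.mem_coe, mem_subgroupOf]; exact ⟨b, 0, by rw [C.z_zero, mul_one]⟩, rfl⟩⟩ :
          ((EG C).subgroupOf M).map (QuotientGroup.mk' ((ZG C).subgroupOf M)))) := by
      rintro ⟨_, ⟨⟨n, hn⟩, hz, rfl⟩⟩
      rw [SetLike.mem_coe, mem_subgroupOf] at hz
      obtain ⟨b, e, he⟩ := hz
      refine ⟨b, Subtype.ext ?_⟩
      refine (QuotientGroup.eq (s := (ZG C).subgroupOf M)).mpr ?_
      rw [mem_subgroupOf]
      refine ⟨e, ?_⟩
      show (C.v b)⁻¹ * n = _
      rw [show n = C.v b * C.z e from he, inv_mul_cancel_left]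
    have h2 := Nat.card_le_card_of_surjective _ h1
    rwa [QSyl.card_A4] at h2
  · rintro ⟨n, hn⟩ hz he
    have h1 : n * n ∈ C.TT := by
      have hz1 : ∀ e, n * C.z e = C.z e * n := by
        intro e
        exact congrArg Subtype.val (hz ⟨C.z e, hTM _ (z_mem_TT e)⟩ (by rw [mem_subgroupOf]; exact ⟨e, rfl⟩))
      refine ⟨fun b => ?_, fun a => ?_⟩
      · rw [mul_assoc, hz1, ← mul_assoc, hz1, mul_assoc]
      · have h2 := he ⟨C.v a, hTM _ (v_mem_TT a)⟩ (by
          rw [mem_subgroupOf]; exact ⟨a, 0, by rw [C.z_zero, mul_one]⟩)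
        rw [mem_subgroupOf] at h2
        obtain ⟨e, h3⟩ := h2
        have h4 : n * C.v a * n⁻¹ * (C.v a)⁻¹ = C.z e := h3
        have h5 : n * C.v a * n⁻¹ = C.z e * C.v a := mul_inv_eq_iff_eq_mul.mp h4
        have h6 : n * C.z e * n⁻¹ = C.z e := by rw [hz1, mul_inv_cancel_right]
        rw [zero_mul, C.z_zero, mul_one]
        calc n * n * C.v a * (n * n)⁻¹ = n * (n * C.v a * n⁻¹) * n⁻¹ := by group
          _ = n * (C.z e * C.v a) * n⁻¹ := by rw [h5]
          _ = (n * C.z e * n⁻¹) * (n * C.v a * n⁻¹) := by group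
          _ = C.z e * (C.z e * C.v a) := by rw [h5, h6]
          _ = C.v a := by rw [← mul_assoc, C.z_sq, one_mul]
    obtain ⟨k, hk⟩ := QSyl.pgroup_TT C ⟨n * n, h1⟩
    have h2 : (n * n) ^ 2 ^ k = 1 := congrArg Subtype.val hk
    refine ⟨k + 1, Subtype.ext ?_⟩
    show n ^ 2 ^ (k + 1) = 1
    rw [pow_succ', pow_mul, pow_two]
    exact h2

/-- the involutions of `Z(S)` are conjugate to `z 1` -/
theorem conj_z_of_central [Finite G] (hG : Nat.card G = 145926144000) (P : Sylow 2 G) {z : G} (hz : z * z = 1)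
    (hz1 : z ≠ 1) (hP : ∀ s ∈ P, s * z = z * s) : ∃ g, g * C.z 1 * g⁻¹ = z := by
  rcases Cfsg.Agent.KFacts.Ru.InvC.invol_cases C hz hz1 with h | ⟨g, a, ha, rfl⟩
  · exact h
  · exfalso
    have h1 := QSyl.card_le_of_comm (C := C) P.isPGroup' ha g hP
    have h2 : 2 ^ 14 ∣ Nat.card (P : Subgroup G) :=
      P.pow_dvd_card_of_pow_dvd_card (by rw [hG]; norm_num)
    exact absurd (h2.trans h1) (by norm_num)

/-- `C(Y) = T` if `Y` contains `v a` and `v b z 1` -/
theorem centralizer_eq [Finite G] {Y : Subgroup G} {a b : A4} (ha : a ≠ 0) (h1 : C.v a ∈ Y)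
    (h2 : C.v b * C.z 1 ∈ Y) (hab : ∀ y ∈ Y, y ∈ centralizer (Y : Set G)) (hsq : ∀ y ∈ Y, y * y = 1) :
    centralizer (Y : Set G) = C.TT := by
  have key : centralizer (Y : Set G) ≤ C.TT := by
    intro t ht
    rw [mem_centralizer_iff] at ht
    have h3 := ht _ h1
    have h4 := ht _ h2
    obtain ⟨c, l, hl, rfl⟩ := C.cent a ha t h3.symm
    have h5 : l * C.z 1 = C.z 1 * l := by
      have e1 : C.v b * C.z 1 * (C.v c * l) = C.v b * C.v c * (C.z 1 * l) := by
        have := C.v_z_comm c 1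
        calc C.v b * C.z 1 * (C.v c * l) = C.v b * (C.z 1 * C.v c) * l := by group
          _ = _ := by rw [← this]; group
      have e2 : C.v c * l * (C.v b * C.z 1) = C.v b * C.v c * (l * C.z 1) := by
        have := C.v_comm b l hl
        calc C.v c * l * (C.v b * C.z 1) = C.v c * (l * C.v b) * C.z 1 := by group
          _ = (C.v c * C.v b) * l * C.z 1 := by rw [← this]; group
          _ = _ := by rw [C.v_v_comm]; group
      rw [e1, e2] at h4
      exact (mul_left_cancel h4).symm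
    obtain ⟨p, q, rfl⟩ := mem_T_of_comm hl h5
    exact mem_TT_of
  refine le_antisymm key ?_
  intro t ht
  rw [mem_centralizer_iff]
  intro y hy
  obtain ⟨c, q, rfl⟩ := T_sq_one C (key (hab y hy)) (hsq y hy)
  have h3 := comm_v_of_mem_TT ht c
  have h4 := ht.1 q
  calc C.v c * C.z q * t = C.v c * (C.z q * t) := by group
    _ = (C.v c * t) * C.z q := by rw [← h4]; group
    _ = t * (C.v c * C.z q) := by rw [← h3]; group

end core

theorem normalizer_le_normalizer_centralizer {G : Type*} [Group G] (Y : Subgroup G) :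
    normalizer (Y : Set G) ≤ normalizer ((centralizer (Y : Set G) : Subgroup G) : Set G) := by
  have key : ∀ n ∈ normalizer (Y : Set G), ∀ c ∈ centralizer (Y : Set G), n * c * n⁻¹ ∈ centralizer (Y : Set G) := by
    intro n hn c hc
    rw [mem_centralizer_iff] at hc ⊢
    intro y hy
    have h1 : n⁻¹ * y * n ∈ Y := by
      have := (mem_normalizer_iff.mp (inv_mem hn) y).mp hy
      rwa [inv_inv] at this
    have h2 := hc _ h1
    calc y * (n * c * n⁻¹) = n * (n⁻¹ * y * n * c) * n⁻¹ := by group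
      _ = n * (c * (n⁻¹ * y * n)) * n⁻¹ := by rw [h2]
      _ = n * c * n⁻¹ * y := by group
  intro n hn
  rw [mem_normalizer_iff]
  intro c
  refine ⟨fun hc => key n hn c hc, fun hc => ?_⟩
  have h1 := key _ (inv_mem hn) _ hc
  have h2 : n⁻¹ * (n * c * n⁻¹) * n⁻¹⁻¹ = c := by group
  rwa [h2] at h1

/-- an involution of the center of a Sylow subgroup -/
theorem exists_central {G : Type*} [Group G] [Finite G] (S : Sylow 2 G) (h : 2 ∣ Nat.card G) :
    ∃ z : G, z ≠ 1 ∧ z * z = 1 ∧ z ∈ (S : Subgroup G) ∧ ∀ s ∈ (S : Subgroup G), s * z = z * s := by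
  have : Nontrivial (S : Subgroup G) := by
    by_contra hn
    rw [not_nontrivial_iff_subsingleton] at hn
    have h1 : Nat.card (S : Subgroup G) = 1 := Nat.card_of_subsingleton 1
    have h2 : 2 ^ 1 ∣ Nat.card (S : Subgroup G) := S.pow_dvd_card_of_pow_dvd_card (by rwa [pow_one])
    rw [h1] at h2
    exact absurd h2 (by norm_num)
  have hc := S.isPGroup'.center_nontrivial
  have h3 : 2 ∣ Nat.card (center (S : Subgroup G)) := by
    have hp : IsPGroup 2 (center (S : Subgroup G)) := S.isPGroup'.to_subgroup _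
    obtain ⟨n, hn⟩ := hp.exists_card_eq
    rw [hn]
    have h4 : n ≠ 0 := by
      rintro rfl
      rw [pow_zero] at hn
      exact absurd (Finite.one_lt_card_iff_nontrivial.mpr hc) (by omega)
    exact dvd_pow_self 2 h4
  obtain ⟨c, hc⟩ := exists_prime_orderOf_dvd_card' 2 h3
  have h5 := orderOf_eq_prime_iff.mp hc
  refine ⟨((c : (S : Subgroup G)) : G), ?_, ?_, (c : (S : Subgroup G)).2, ?_⟩
  · intro e
    exact h5.2 (Subtype.ext (Subtype.ext e))
  · have h6 := h5.1
    rw [pow_two] at h6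
    exact congrArg (fun t : center (S : Subgroup G) => ((t : (S : Subgroup G)) : G)) h6
  · intro s hs
    exact congrArg Subtype.val (mem_center_iff.mp c.2 ⟨s, hs⟩)

/-- **`G = Ru` is impossible** -/
theorem false_of_core {G : Type u} [Group G] [Finite G] (C : Core G) (hG : Nat.card G = 145926144000)
    {S : Sylow 2 G} {Q M Y : Subgroup G} {x : G} (h : Tall S Q M Y x) : False := by
  have hSc : 2 ^ 14 ∣ Nat.card (S : Subgroup G) :=
    S.pow_dvd_card_of_pow_dvd_card (by rw [hG]; norm_num)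
  obtain ⟨z, hz1, hzz, -, hzS⟩ := exists_central S (by rw [hG]; norm_num)
  have hzY : z ∈ Y := h.omega z hzS hzz
  have hzQ : z ∈ Q := h.zS z hzS ⟨1, by rw [pow_one, pow_two]; exact hzz⟩
  have hzg := (h.good z hzQ hz1 fun q hq => hzS q (h.Q_le hq)).2
  obtain ⟨g0, hg0⟩ := conj_z_of_central C hG S hzz hz1 hzS
  -- the class of `x`
  have hxx := orderOf_eq_prime_iff.mp h.x_ord
  have hx2 : x * x = 1 := by rw [← pow_two]; exact hxx.1
  obtain ⟨g, a, ha, hx⟩ : ∃ g a, a ≠ 0 ∧ g * C.v a * g⁻¹ = x := by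
    rcases Cfsg.Agent.KFacts.Ru.InvC.invol_cases C hx2 hxx.2 with ⟨g, hg⟩ | h1
    · exfalso
      apply h.x_bad
      have h1 := Cfsg.Agent.H239.CharPLocal.cp_centralizer_conj (g * g0⁻¹) z hzg
      have h2 : g * g0⁻¹ * z * (g * g0⁻¹)⁻¹ = x := by rw [← hg, ← hg0]; group
      rwa [h2] at h1
    · exact h1
  have hY1 : ∀ y ∈ Y, y * y = 1 := fun y hy => ((h.Y_iff y).mp hy).2.1
  have hYT : Y ≤ O2 M := fun y hy => ((h.Y_iff y).mp hy).1
  have hYab : ∀ y ∈ Y, y ∈ centralizer (Y : Set G) := by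
    intro y hy
    rw [mem_centralizer_iff]
    intro y' hy'
    exact ((h.Y_iff y).mp hy).2.2 y' (hYT hy')
  -- coordinates of `z`
  have hcomm : (g⁻¹ * z * g) * C.v a = C.v a * (g⁻¹ * z * g) := by
    have h1 : x * z = z * x := (mem_centralizer_iff.mp (hYab z hzY) x h.x_mem)
    calc (g⁻¹ * z * g) * C.v a = g⁻¹ * (z * (g * C.v a * g⁻¹)) * g := by group
      _ = g⁻¹ * (x * z) * g := by rw [hx, h1]
      _ = C.v a * (g⁻¹ * z * g) := by rw [← hx]; group
  obtain ⟨b, l, hl, hzl⟩ := C.cent a ha _ hcomm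
  have hlinv : InvL C l := by
    refine ⟨hl, ?_, ?_⟩
    · have h1 : (g⁻¹ * z * g) * (g⁻¹ * z * g) = 1 := by
        calc (g⁻¹ * z * g) * (g⁻¹ * z * g) = g⁻¹ * (z * z) * g := by group
          _ = 1 := by rw [hzz]; group
      rw [hzl] at h1
      have h2 := C.v_comm b l hl
      calc l * l = (C.v b * C.v b) * (l * l) := by rw [C.v_sq, one_mul]
        _ = C.v b * (C.v b * l) * l := by group
        _ = C.v b * (l * C.v b) * l := by rw [h2]
        _ = (C.v b * l) * (C.v b * l) := by group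
        _ = 1 := h1
    · rintro rfl
      rw [mul_one] at hzl
      refine QSyl.noV (C := C) (g⁻¹ * g0) b ?_
      rw [← hzl, ← hg0]
      group
  obtain ⟨m, hm, hml⟩ := exists_conj_L hlinv
  -- the conjugate core
  let C' := conjCore C (g * m)
  have e1 : C'.v a = x := by
    show g * m * C.v a * (g * m)⁻¹ = x
    have := C.v_comm a m hm
    calc g * m * C.v a * (g * m)⁻¹ = g * (m * C.v a) * m⁻¹ * g⁻¹ := by group
      _ = g * C.v a * g⁻¹ := by rw [← this]; group
      _ = x := hx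
  have e2 : C'.v b * C'.z 1 = z := by
    show g * m * C.v b * (g * m)⁻¹ * (g * m * C.z 1 * (g * m)⁻¹) = z
    have := C.v_comm b m hm
    calc g * m * C.v b * (g * m)⁻¹ * (g * m * C.z 1 * (g * m)⁻¹) = g * (m * C.v b) * C.z 1 * m⁻¹ * g⁻¹ := by group
      _ = g * C.v b * (m * C.z 1 * m⁻¹) * g⁻¹ := by rw [← this]; group
      _ = g * (g⁻¹ * z * g) * g⁻¹ := by rw [hml, hzl]; group
      _ = z := by group
  have hc : centralizer (Y : Set G) = C'.TT :=
    centralizer_eq C' (a := a) (b := b) ha (e1 ▸ h.x_mem) (e2 ▸ hzY) hYab hY1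
  -- `O₂(M) = T`
  have hMne : O2 M ≠ ⊥ := by
    intro e
    have := hYT hzY
    rw [e, mem_bot] at this
    exact hz1 this
  have hMY := h.norm_Y M le_rfl hMne
  have hSN : (S : Subgroup G) ≤ normalizer ((centralizer (Y : Set G) : Subgroup G) : Set G) := by
    intro s hs
    exact normalizer_le_normalizer_centralizer Y (hMY (h.S_le_M hs))
  have hST : C'.TT ≤ (S : Subgroup G) := by
    rw [hc] at hSN
    have h1 : IsPGroup 2 (((S : Subgroup G) ⊔ C'.TT : Subgroup G)) :=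
      IsPGroup.to_sup_of_normal_right' S.isPGroup' (QSyl.pgroup_TT C') hSN
    have h2 := S.is_maximal' h1 le_sup_left
    rw [← h2]
    exact le_sup_right
  have hM : O2 M = C'.TT := by
    rw [h.T_eq, hc]
    exact inf_eq_right.mpr hST
  have h1 := card_dvd_of_norm C' M hM
  have h2 : 2 ^ 14 ∣ Nat.card M := hSc.trans (Subgroup.card_dvd_of_le h.S_le_M)
  exact absurd (h2.trans h1) (by decide)

/-- **`Ru` does not occur as `F*(G)`** -/
theorem no1_ru : No1.{u} (fun K _ => Spor.IsoRu K) := by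
  intro G _ _ S Q M Y x K h hK
  have := h.nK
  have hG : K = ⊤ := eq_top_of_inner h.cent (Cfsg.Agent.OddHalf.D4.Spor.RuIso.inn hK)
  subst hG
  have hi : Spor.IsoRu G := by
    obtain ⟨e⟩ := hK
    exact ⟨(Subgroup.topEquiv.symm).trans e⟩
  obtain ⟨C, -⟩ := Cfsg.Agent.KFacts.Ru.exists_core hi
  exact false_of_core C (Cfsg.Agent.RuC.Trans.natCard_of_isoRu hi) h.toTall

/-- **Row 2 for `Ru`** -/
theorem rowTwo_ru (K : Type u) [Group K] (hK : Spor.IsoRu K) : RowTwo K := by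
  rintro z ⟨hz, P, hP⟩ h2
  have hc := Cfsg.Agent.RuC.Trans.natCard_of_isoRu hK
  have : Finite K := Nat.finite_of_card_ne_zero (by rw [hc]; norm_num)
  obtain ⟨t, s, w, f, d, y, hL⟩ := Cfsg.Agent.KFacts.Ru.exists_lets hK
  obtain ⟨C, -, -, hv, hs, -⟩ := hL.exists_core
  have hzz := orderOf_eq_prime_iff.mp hz
  obtain ⟨g, hg⟩ := conj_z_of_central C hc P (z := z) (by rw [← pow_two]; exact hzz.1) hzz.2 (by
    intro s hs
    exact mem_centralizer_singleton_iff.mp (hP hs))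
  have hd3 : d * d * d = 1 := hL.rel.d3
  have hds : d * s = s * d := by
    have h3 := hL.rel.ds
    have h4 : d * s * d⁻¹ = s := mul_inv_eq_one.mp h3
    exact mul_inv_eq_iff_eq_mul.mp h4
  have hdz : d * C.z 1 = C.z 1 * d := by
    have h3 := C.U_sq 1 1
    rw [one_pow] at h3
    rw [← h3, hs, ← mul_assoc, hds, mul_assoc, hds, mul_assoc]
  have hd1 : d ≠ 1 := by
    rintro rfl
    have h3 := hL.rel.td
    have h4 := hL.rel.t2
    rw [mul_one, mul_one, mul_one, h4, one_mul] at h3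
    exact hL.ne h3
  have hm : g * d * g⁻¹ ∈ centralizer ({z} : Set K) := by
    rw [mem_centralizer_singleton_iff, ← hg]
    calc g * d * g⁻¹ * (g * C.z 1 * g⁻¹) = g * (d * C.z 1) * g⁻¹ := by group
      _ = _ := by rw [hdz]; group
  obtain ⟨k, hk⟩ := h2 ⟨_, hm⟩
  have h3 : (g * d * g⁻¹) ^ 2 ^ k = 1 := congrArg Subtype.val hk
  have h4 : d ^ 2 ^ k = 1 := by
    rw [conj_pow] at h3
    calc d ^ 2 ^ k = g⁻¹ * (g * d ^ 2 ^ k * g⁻¹) * g := by group
      _ = 1 := by rw [h3]; group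
  have h5 : d ^ 3 = 1 := by rw [pow_succ, pow_two]; exact hd3
  have h6 : Nat.gcd (2 ^ k) 3 = 1 := Nat.Coprime.pow_left k (by decide)
  apply hd1
  have h7 := orderOf_dvd_of_pow_eq_one h4
  have h8 := orderOf_dvd_of_pow_eq_one h5
  have h9 := Nat.dvd_gcd h7 h8
  rw [h6, Nat.dvd_one] at h9
  exact orderOf_eq_one_iff.mp h9

end Cfsg.Agent.H799.Tall.Ru
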