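import Cfsg.Agent.H226.Tall.Defs

/-!
# Tools for the rows of S2927 (helper799)

* `eq_top_of_inner` : a normal subgroup `K` with `C_G(K) = 1` and only inner automorphisms is `G`;
* `card_mulAut_dvd` : `|Aut A|` divides `(|A| - 1)!`;
-/

set_option autoImplicit false

namespace Cfsg.Agent.H799.Tall

open Subgroup Cfsg

theorem eq_top_of_inner {G : Type*} [Group G] {K : Subgroup G} [K.Normal] (hC : centralizer (K : Set G) = ⊥)
    (hin : ∀ α : MulAut ↥K, ∃ k : ↥K, α = MulAut.conj k) : K = ⊤ := by
  rw [eq_top_iff]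
  intro g _
  obtain ⟨k, hk⟩ := hin (MulAut.conjNormal g)
  have h1 : (k : G)⁻¹ * g ∈ centralizer (K : Set G) := by
    rw [mem_centralizer_iff]
    intro a ha
    have h2 := congrArg (fun f : MulAut ↥K => ((f ⟨a, ha⟩ : ↥K) : G)) hk
    simp only [MulAut.conjNormal_apply, MulAut.conj_apply, Subgroup.coe_mul, Subgroup.coe_inv] at h2
    calc a * ((k : G)⁻¹ * g) = (k : G)⁻¹ * (k * a * (k : G)⁻¹) * g := by group
      _ = (k : G)⁻¹ * (g * a * g⁻¹) * g := by rw [h2]
      _ = (k : G)⁻¹ * g * a := by group
  rw [hC, mem_bot] at h1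
  have h2 : g = k := by
    rw [inv_mul_eq_one] at h1
    exact h1.symm
  rw [h2]
  exact k.2

/-- the automorphism group permutes the nontrivial elements -/
theorem card_mulAut_dvd (A : Type*) [Group A] [Finite A] : Nat.card (MulAut A) ∣ (Nat.card A - 1).factorial := by
  classical
  have := Fintype.ofFinite A
  let f : MulAut A →* Equiv.Perm {a : A // a ≠ 1} :=
    { toFun := fun α => α.toEquiv.subtypeEquiv fun a => by
        show a ≠ 1 ↔ α a ≠ 1
        rw [ne_eq, ne_eq, map_eq_one_iff α α.injective]
      map_one' := by ext a; rfl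
      map_mul' := fun α β => by ext a; rfl }
  have hf : Function.Injective f := by
    intro α β h
    ext a
    by_cases ha : a = 1
    · rw [ha, map_one, map_one]
    · exact congrArg Subtype.val (DFunLike.congr_fun h ⟨a, ha⟩)
  have h1 := Subgroup.card_dvd_of_injective f hf
  have h2 : Nat.card {a : A // a ≠ 1} = Nat.card A - 1 := by
    rw [Nat.card_eq_fintype_card, Nat.card_eq_fintype_card, Fintype.card_subtype_compl]
    simp
  rwa [Nat.card_perm, h2] at h1

end Cfsg.Agent.H799.Tall
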